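import Mathlib

/-! The functions giving the largest abelian subgroup of `S_n` and of `A_n`. -/

set_option autoImplicit false

namespace Cfsg.Agent.MaxAbelPerm

/-- Largest order of an abelian subgroup of `S_n`. -/
def sB : ℕ → ℕ
  | 0 => 1
  | 1 => 1
  | 2 => 2
  | 3 => 3
  | 4 => 4
  | (n + 5) => 3 * sB (n + 2)

/-- Largest order of an abelian subgroup of `A_n`. -/
def aB : ℕ → ℕ
  | 0 => 1
  | 1 => 1
  | 2 => 1
  | 3 => 3
  | 4 => 4
  | 5 => 5
  | 6 => 9
  | 7 => 12
  | 8 => 16
  | (n + 9) => 3 * aB (n + 6)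

theorem sB_add_three {n : ℕ} (h : 2 ≤ n) : sB (n + 3) = 3 * sB n := by
  obtain ⟨m, rfl⟩ : ∃ m, n = m + 2 := ⟨n - 2, by omega⟩
  simp [sB]

theorem aB_add_three {n : ℕ} (h : 6 ≤ n) : aB (n + 3) = 3 * aB n := by
  obtain ⟨m, rfl⟩ : ∃ m, n = m + 6 := ⟨n - 6, by omega⟩
  simp [aB]

theorem aB_pos (n : ℕ) : 0 < aB n := by
  induction n using Nat.strong_induction_on with
  | _ n ih =>
    by_cases h : 9 ≤ n
    · obtain ⟨k, rfl⟩ : ∃ k, n = k + 3 := ⟨n - 3, by omega⟩
      rw [aB_add_three (by omega)]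
      have := ih k (by omega)
      omega
    · interval_cases n <;> simp [aB]

theorem sB_mul (a b : ℕ) : sB a * sB b ≤ sB (a + b) := by
  induction h : a + b using Nat.strong_induction_on generalizing a b with
  | _ n ih =>
    subst h
    by_cases ha : 5 ≤ a
    · obtain ⟨c, rfl⟩ : ∃ c, a = c + 3 := ⟨a - 3, by omega⟩
      rw [sB_add_three (by omega), show c + 3 + b = c + b + 3 by ring, sB_add_three (by omega), mul_assoc]
      exact Nat.mul_le_mul_left 3 (ih _ (by omega) c b rfl)
    by_cases hb : 5 ≤ b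
    · obtain ⟨c, rfl⟩ : ∃ c, b = c + 3 := ⟨b - 3, by omega⟩
      rw [sB_add_three (by omega), show a + (c + 3) = a + c + 3 by ring, sB_add_three (by omega), mul_left_comm]
      exact Nat.mul_le_mul_left 3 (ih _ (by omega) a c rfl)
    interval_cases a <;> interval_cases b <;> decide

theorem aB_mul (a b : ℕ) : aB a * aB b ≤ aB (a + b) := by
  induction h : a + b using Nat.strong_induction_on generalizing a b with
  | _ n ih =>
    subst h
    by_cases ha : 9 ≤ a
    · obtain ⟨c, rfl⟩ : ∃ c, a = c + 3 := ⟨a - 3, by omega⟩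
      rw [aB_add_three (by omega), show c + 3 + b = c + b + 3 by ring, aB_add_three (by omega), mul_assoc]
      exact Nat.mul_le_mul_left 3 (ih _ (by omega) c b rfl)
    by_cases hb : 9 ≤ b
    · obtain ⟨c, rfl⟩ : ∃ c, b = c + 3 := ⟨b - 3, by omega⟩
      rw [aB_add_three (by omega), show a + (c + 3) = a + c + 3 by ring, aB_add_three (by omega), mul_left_comm]
      exact Nat.mul_le_mul_left 3 (ih _ (by omega) a c rfl)
    interval_cases a <;> interval_cases b <;> decide

theorem le_sB (m : ℕ) : m ≤ sB m := by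
  induction m using Nat.strong_induction_on with
  | _ n ih =>
    by_cases h : 5 ≤ n
    · obtain ⟨k, rfl⟩ : ∃ k, n = k + 3 := ⟨n - 3, by omega⟩
      rw [sB_add_three (by omega)]
      have := ih k (by omega)
      omega
    · interval_cases n <;> simp [sB]

theorem lt_aB {m : ℕ} (h : 6 ≤ m) : m < aB m := by
  induction m using Nat.strong_induction_on with
  | _ n ih =>
    by_cases h' : 9 ≤ n
    · obtain ⟨k, rfl⟩ : ∃ k, n = k + 3 := ⟨n - 3, by omega⟩
      rw [aB_add_three (by omega)]
      have := ih k (by omega) (by omega)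
      omega
    · interval_cases n <;> simp [aB]

theorem le_aB {m : ℕ} (h : m ≠ 2) : m ≤ aB m := by
  by_cases h' : 6 ≤ m
  · exact (lt_aB h').le
  · interval_cases m <;> simp_all [aB]

theorem mul_sB_le (m k : ℕ) : m * sB k ≤ sB (m + k) :=
  (Nat.mul_le_mul_right _ (le_sB m)).trans (sB_mul m k)

theorem mul_aB_le {m k : ℕ} (h : m ≠ 2) : m * aB k ≤ aB (m + k) :=
  (Nat.mul_le_mul_right _ (le_aB h)).trans (aB_mul m k)

theorem aB_succ_lt {k : ℕ} (h : 2 ≤ k) : aB k < aB (k + 1) := by
  induction k using Nat.strong_induction_on with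
  | _ n ih =>
    by_cases h' : 9 ≤ n
    · obtain ⟨j, rfl⟩ : ∃ j, n = j + 3 := ⟨n - 3, by omega⟩
      rw [aB_add_three (by omega), show j + 3 + 1 = j + 1 + 3 by ring, aB_add_three (by omega)]
      have := ih j (by omega) (by omega)
      omega
    · interval_cases n <;> simp [aB]

theorem five_mul_aB_lt {k : ℕ} (h : 1 ≤ k) : 5 * aB k < aB (5 + k) := by
  induction k using Nat.strong_induction_on with
  | _ n ih =>
    by_cases h' : 9 ≤ n
    · obtain ⟨j, rfl⟩ : ∃ j, n = j + 3 := ⟨n - 3, by omega⟩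
      rw [aB_add_three (by omega), show 5 + (j + 3) = 5 + j + 3 by ring, aB_add_three (by omega)]
      have := ih j (by omega) (by omega)
      omega
    · interval_cases n <;> simp [aB]

theorem mul_aB_eq {m k : ℕ} (hm : 1 ≤ m) (h2 : m ≠ 2) (hn : 3 ≤ m + k) (hn5 : m + k ≠ 5)
    (he : aB (m + k) ≤ m * aB k) : m = 3 ∨ m = 4 := by
  rcases lt_or_ge m 6 with hm6 | hm6
  · interval_cases m <;> try omega
    · have := aB_succ_lt (k := k) (by omega)
      rw [show 1 + k = k + 1 by ring] at he
      omega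
    · have := five_mul_aB_lt (k := k) (by omega)
      omega
  · have h1 := aB_mul m k
    have h2 := Nat.mul_lt_mul_of_pos_right (lt_aB hm6) (aB_pos k)
    omega

theorem sB_lt_two_mul_aB {n : ℕ} (h : 3 ≤ n) : sB n < 2 * aB n := by
  induction n using Nat.strong_induction_on with
  | _ n ih =>
    by_cases h' : 9 ≤ n
    · obtain ⟨k, rfl⟩ : ∃ k, n = k + 3 := ⟨n - 3, by omega⟩
      rw [sB_add_three (by omega), aB_add_three (by omega)]
      have := ih k (by omega) (by omega)
      omega
    · interval_cases n <;> simp [aB, sB]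

theorem sB_le_two_mul_aB (n : ℕ) : sB n ≤ 2 * aB n := by
  by_cases h : 3 ≤ n
  · exact (sB_lt_two_mul_aB h).le
  · interval_cases n <;> simp [aB, sB]

theorem sB_three (k : ℕ) : sB (3 * k) = 3 ^ k := by
  induction k with
  | zero => simp [sB]
  | succ k ih =>
    rcases Nat.eq_zero_or_pos k with rfl | hk
    · simp [sB]
    rw [show 3 * (k + 1) = 3 * k + 3 by ring, sB_add_three (by omega), ih, pow_succ']

theorem sB_three_one (k : ℕ) : sB (3 * (k + 1) + 1) = 4 * 3 ^ k := by
  induction k with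
  | zero => simp [sB]
  | succ k ih =>
    rw [show 3 * (k + 1 + 1) + 1 = 3 * (k + 1) + 1 + 3 by ring, sB_add_three (by omega), ih, pow_succ']
    ring

theorem sB_three_two (k : ℕ) : sB (3 * k + 2) = 2 * 3 ^ k := by
  induction k with
  | zero => simp [sB]
  | succ k ih =>
    rw [show 3 * (k + 1) + 2 = 3 * k + 2 + 3 by ring, sB_add_three (by omega), ih, pow_succ']
    ring

theorem aB_three (k : ℕ) : aB (3 * (k + 2)) = 3 ^ (k + 2) := by
  induction k with
  | zero => simp [aB]
  | succ k ih =>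
    rw [show 3 * (k + 1 + 2) = 3 * (k + 2) + 3 by ring, aB_add_three (by omega), ih,
      show k + 1 + 2 = (k + 2) + 1 by ring, pow_succ' 3 (k + 2)]

theorem aB_three_one (k : ℕ) : aB (3 * (k + 2) + 1) = 4 * 3 ^ (k + 1) := by
  induction k with
  | zero => simp [aB]
  | succ k ih =>
    rw [show 3 * (k + 1 + 2) + 1 = 3 * (k + 2) + 1 + 3 by ring, aB_add_three (by omega), ih, pow_succ' 3 (k + 1)]
    ring

theorem aB_three_two (k : ℕ) : aB (3 * (k + 2) + 2) = 16 * 3 ^ k := by
  induction k with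
  | zero => simp [aB]
  | succ k ih =>
    rw [show 3 * (k + 1 + 2) + 2 = 3 * (k + 2) + 2 + 3 by ring, aB_add_three (by omega), ih, pow_succ']
    ring

end Cfsg.Agent.MaxAbelPerm
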