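import Cfsg.Agent.MaxAbelPerm.Arith

/-! Abelian permutation groups: the bounds and the structure of the largest even ones. -/

set_option autoImplicit false

namespace Cfsg.Agent.MaxAbelPerm

open Equiv

variable {α : Type*} (p : α → Prop)

/-- The permutations preserving `p`. -/
def Pres : Subgroup (Perm α) where
  carrier := {g | ∀ y, p (g y) ↔ p y}
  mul_mem' ha hb := fun y => (ha _).trans (hb y)
  one_mem' := fun _ => Iff.rfl
  inv_mem' {a} ha := fun y => by
    have h := (ha (a⁻¹ y)).symm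
    simpa using h

theorem not_iff_of_mem {g : Perm α} (h : g ∈ Pres p) : ∀ y, ¬p (g y) ↔ ¬p y :=
  fun y => not_congr (h y)

/-- Restriction to `p`. -/
def res₁ : Pres p →* Perm {y // p y} where
  toFun g := (g : Perm α).subtypePerm g.2
  map_one' := rfl
  map_mul' _ _ := rfl

/-- Restriction to the complement of `p`. -/
def res₂ : Pres p →* Perm {y // ¬p y} where
  toFun g := (g : Perm α).subtypePerm (not_iff_of_mem p g.2)
  map_one' := rfl
  map_mul' _ _ := rfl

@[simp] theorem res₁_apply (g : Pres p) (y : {y // p y}) : (res₁ p g y : α) = (g : Perm α) y := rfl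

@[simp] theorem res₂_apply (g : Pres p) (y : {y // ¬p y}) : (res₂ p g y : α) = (g : Perm α) y := rfl

variable [DecidablePred p]

theorem res_ext {g h : Pres p} (h₁ : res₁ p g = res₁ p h) (h₂ : res₂ p g = res₂ p h) : g = h := by
  refine Subtype.ext (Equiv.ext fun y => ?_)
  by_cases hy : p y
  · exact congrArg Subtype.val (Equiv.congr_fun h₁ ⟨y, hy⟩)
  · exact congrArg Subtype.val (Equiv.congr_fun h₂ ⟨y, hy⟩)

theorem subtypeCongr_res (g : Pres p) : Perm.subtypeCongr (res₁ p g) (res₂ p g) = (g : Perm α) := by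
  refine Equiv.ext fun y => ?_
  by_cases hy : p y
  · simp [Perm.subtypeCongr.apply, hy]
  · simp [Perm.subtypeCongr.apply, hy]

variable [Fintype α] [DecidableEq α]

theorem sign_eq (g : Pres p) : Perm.sign (g : Perm α) = Perm.sign (res₁ p g) * Perm.sign (res₂ p g) := by
  rw [← Perm.sign_subtypeCongr, subtypeCongr_res]

omit p

/-- The even permutations that are trivial or fixed point free. -/
def IsEvenFPF {β : Type*} [Fintype β] [DecidableEq β] (σ : Perm β) : Prop :=
  Perm.sign σ = 1 ∧ (σ = 1 ∨ ∀ y, σ y ≠ y)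

theorem isEvenFPF_permCongr {β γ : Type*} [Fintype β] [DecidableEq β] [Fintype γ] [DecidableEq γ]
    (e : β ≃ γ) (σ : Perm β) : IsEvenFPF (e.permCongr σ) ↔ IsEvenFPF σ := by
  have h1 : e.permCongr σ = 1 ↔ σ = 1 := by
    rw [← e.permCongr.injective.eq_iff (a := σ) (b := 1)]
    constructor <;> intro h <;> rw [h] <;> ext y <;> simp
  have h2 : (∀ y, e.permCongr σ y ≠ y) ↔ ∀ y, σ y ≠ y := by
    constructor
    · intro h y hy; exact h (e y) (by simp [hy])
    · intro h y hy
      refine h (e.symm y) ?_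
      apply e.injective
      simpa using hy
  simp only [IsEvenFPF, Perm.sign_permCongr, h1, h2]

theorem card_evenFPF_three : Nat.card {σ : Perm (Fin 3) // IsEvenFPF σ} = 3 := by
  unfold IsEvenFPF
  rw [Nat.card_eq_fintype_card]
  decide +kernel

theorem card_evenFPF_four : Nat.card {σ : Perm (Fin 4) // IsEvenFPF σ} = 4 := by
  unfold IsEvenFPF
  rw [Nat.card_eq_fintype_card]
  decide +kernel

theorem card_evenFPF_le {β : Type*} [Fintype β] [DecidableEq β] (h : Fintype.card β = 3 ∨ Fintype.card β = 4) :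
    Nat.card {σ : Perm β // IsEvenFPF σ} = Fintype.card β := by
  let e := Fintype.equivFin β
  rw [Nat.card_congr (e.permCongr.subtypeEquiv (fun σ => (isEvenFPF_permCongr e σ).symm))]
  rcases h with h | h <;> rw [h]
  · exact card_evenFPF_three
  · exact card_evenFPF_four

section Abelian

variable (A : Subgroup (Perm α)) (x : α)

/-- The point predicate of the orbit of `x`. -/
def InOrb (y : α) : Prop := ∃ a ∈ A, a x = y

theorem inOrb_self : InOrb A x x := ⟨1, one_mem _, rfl⟩

theorem le_pres : A ≤ Pres (InOrb A x) := fun a ha y => by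
  constructor
  · rintro ⟨b, hb, e⟩
    exact ⟨a⁻¹ * b, mul_mem (inv_mem ha) hb, by simp [e]⟩
  · rintro ⟨b, hb, e⟩
    exact ⟨a * b, mul_mem ha hb, by simp [e]⟩

/-- The two restrictions of `A`. -/
def sub : Subgroup (Pres (InOrb A x)) := A.subgroupOf (Pres (InOrb A x))

theorem card_sub : Nat.card (sub A x) = Nat.card A :=
  Nat.card_congr (Subgroup.subgroupOfEquivOfLe (le_pres A x)).toEquiv

variable {A} (hA : ∀ a ∈ A, ∀ b ∈ A, a * b = b * a)
include hA

theorem comm_map₂ : ∀ a ∈ (sub A x).map (res₂ (InOrb A x)), ∀ b ∈ (sub A x).map (res₂ (InOrb A x)),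
    a * b = b * a := by
  rintro _ ⟨a, ha, rfl⟩ _ ⟨b, hb, rfl⟩
  rw [← map_mul, ← map_mul]
  exact congrArg _ (Subtype.ext (hA _ ha _ hb))

theorem eq_one_of_fixed {a : Pres (InOrb A x)} (ha : a ∈ sub A x) {y : {y // InOrb A x y}}
    (hy : res₁ (InOrb A x) a y = y) : res₁ (InOrb A x) a = 1 := by
  refine Equiv.ext fun z => Subtype.ext ?_
  obtain ⟨b, hb, hby⟩ := y.2
  obtain ⟨c, hc, hcz⟩ := z.2
  have hy' : (a : Perm α) y = y := congrArg Subtype.val hy
  have hfix : (a : Perm α) x = x := by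
    have e := Equiv.congr_fun (hA _ ha _ hb) x
    simp only [Subgroup.subtype_apply, Perm.mul_apply] at e
    rw [hby, hy', ← hby] at e
    exact (b.injective e).symm
  show (a : Perm α) z = z
  have e := Equiv.congr_fun (hA _ ha _ hc) x
  simp only [Subgroup.subtype_apply, Perm.mul_apply] at e
  rw [hfix, hcz] at e
  exact e

theorem card_map₁ : Nat.card ((sub A x).map (res₁ (InOrb A x))) = Nat.card {y // InOrb A x y} := by
  refine Nat.card_congr (Equiv.ofBijective (fun σ => σ.1 ⟨x, inOrb_self A x⟩) ⟨?_, ?_⟩)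
  · rintro ⟨_, a, ha, rfl⟩ ⟨_, b, hb, rfl⟩ e
    apply Subtype.ext
    have h : res₁ (InOrb A x) (b⁻¹ * a) = 1 := by
      refine eq_one_of_fixed x hA (mul_mem (inv_mem hb) ha) (y := ⟨x, inOrb_self A x⟩) ?_
      simp only [map_mul, map_inv, Perm.mul_apply]
      rw [show res₁ (InOrb A x) a ⟨x, inOrb_self A x⟩ = res₁ (InOrb A x) b ⟨x, inOrb_self A x⟩ from e]
      simp
    rw [map_mul, map_inv, inv_mul_eq_one] at h
    exact h.symm
  · rintro ⟨y, a, ha, rfl⟩
    exact ⟨⟨_, ⟨a, le_pres A x ha⟩, ha, rfl⟩, rfl⟩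

omit hA in
/-- The part of `A` trivial outside the orbit, restricted to the orbit. -/
theorem card_split (A : Subgroup (Perm α)) (x : α) :
    ∃ R : Subgroup (Perm {y // InOrb A x y}), R ≤ (sub A x).map (res₁ (InOrb A x)) ∧
      (∀ σ ∈ R, ∃ a ∈ sub A x, res₁ (InOrb A x) a = σ ∧ res₂ (InOrb A x) a = 1) ∧
      Nat.card A = Nat.card R * Nat.card ((sub A x).map (res₂ (InOrb A x))) := by
  set f := (res₂ (InOrb A x)).comp (sub A x).subtype
  set g := (res₁ (InOrb A x)).comp (sub A x).subtype
  have hinj : Function.Injective (g.comp f.ker.subtype) := by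
    rintro ⟨a, ha⟩ ⟨b, hb⟩ e
    classical
    exact Subtype.ext (Subtype.ext (res_ext (InOrb A x) e ((MonoidHom.mem_ker.1 ha).trans (MonoidHom.mem_ker.1 hb).symm)))
  refine ⟨f.ker.map g, ?_, ?_, ?_⟩
  · rintro _ ⟨a, -, rfl⟩; exact ⟨a, a.2, rfl⟩
  · rintro _ ⟨a, ha, rfl⟩; exact ⟨a, a.2, rfl, ha⟩
  · rw [← card_sub A x, ← Subgroup.card_mul_index f.ker, Subgroup.index_ker]
    congr 1
    · rw [show f.ker.map g = (g.comp f.ker.subtype).range by rw [MonoidHom.range_comp, Subgroup.range_subtype]]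
      exact Nat.card_congr (MonoidHom.ofInjective hinj).toEquiv
    · rw [MonoidHom.range_comp, Subgroup.range_subtype]

omit [DecidableEq α] in
theorem card_split_point [DecidablePred (InOrb A x)] :
    Fintype.card {y // InOrb A x y} + Fintype.card {y // ¬InOrb A x y} = Fintype.card α := by
  rw [← Fintype.card_sum]
  exact Fintype.card_congr (Equiv.sumCompl _)

/-- The dichotomy at a point, for an even group. -/
theorem step_even (hev : ∀ a ∈ A, Perm.sign a = 1) [DecidablePred (InOrb A x)] :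
    (2 * Nat.card A ≤ Fintype.card {y // InOrb A x y} * Nat.card ((sub A x).map (res₂ (InOrb A x)))) ∨
      (Nat.card A = Fintype.card {y // InOrb A x y} * Nat.card ((sub A x).map (res₂ (InOrb A x))) ∧
        Fintype.card {y // InOrb A x y} ≠ 2 ∧
        (∀ b ∈ (sub A x).map (res₂ (InOrb A x)), Perm.sign b = 1) ∧
        (∀ σ ∈ (sub A x).map (res₁ (InOrb A x)), IsEvenFPF σ) ∧
        ∀ g : Pres (InOrb A x), res₁ (InOrb A x) g ∈ (sub A x).map (res₁ (InOrb A x)) →
          res₂ (InOrb A x) g ∈ (sub A x).map (res₂ (InOrb A x)) → (g : Perm α) ∈ A) := by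
  obtain ⟨R, hR, hlift, hcard⟩ := card_split A x
  have h1 := card_map₁ x hA
  rw [Nat.card_eq_fintype_card (α := {y // InOrb A x y})] at h1
  have hdvd := Subgroup.card_dvd_of_le hR
  rw [h1] at hdvd
  obtain ⟨c, hc⟩ := hdvd
  by_cases heq : R = (sub A x).map (res₁ (InOrb A x))
  · right
    rw [heq, h1] at hcard
    have hR1 : ∀ σ ∈ (sub A x).map (res₁ (InOrb A x)), Perm.sign σ = 1 := by
      intro σ hσ
      obtain ⟨a, ha, e1, e2⟩ := hlift σ (heq ▸ hσ)
      have := hev _ ha
      rwa [Subgroup.subtype_apply, sign_eq (InOrb A x) a, e1, e2, map_one, mul_one] at this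
    refine ⟨hcard, ?_, ?_, ?_, ?_⟩
    · intro h2
      rw [h2] at h1
      have : ∀ σ : Perm {y // InOrb A x y}, Perm.sign σ = 1 → σ = 1 := by
        intro σ hσ
        have hal : Nat.card (alternatingGroup {y // InOrb A x y}) = 1 := by
          haveI : Nontrivial {y // InOrb A x y} := Fintype.one_lt_card_iff_nontrivial.1 (by omega)
          rw [nat_card_alternatingGroup, Nat.card_eq_fintype_card, h2]
          rfl
        have := Subgroup.eq_bot_of_card_eq _ hal
        exact (Subgroup.eq_bot_iff_forall _).1 this σ hσ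
      have hb : (sub A x).map (res₁ (InOrb A x)) = ⊥ :=
        (Subgroup.eq_bot_iff_forall _).2 fun σ hσ => this σ (hR1 σ hσ)
      rw [hb, Subgroup.card_bot] at h1
      omega
    · rintro _ ⟨a, ha, rfl⟩
      have := hev _ ha
      rwa [Subgroup.subtype_apply, sign_eq (InOrb A x) a, hR1 _ ⟨a, ha, rfl⟩, one_mul] at this
    · rintro _ ⟨a, ha, rfl⟩
      refine ⟨hR1 _ ⟨a, ha, rfl⟩, or_iff_not_imp_left.2 fun hne y hy => hne ?_⟩
      exact eq_one_of_fixed x hA ha hy
    · rintro g h₁ ⟨a, ha, e⟩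
      have h₁' : res₁ (InOrb A x) (g * a⁻¹) ∈ R := by
        rw [heq, map_mul, map_inv]; exact mul_mem h₁ (inv_mem ⟨a, ha, rfl⟩)
      obtain ⟨b, hb, e1, e2⟩ := hlift _ h₁'
      have : g * a⁻¹ = b := res_ext (InOrb A x) e1.symm (by rw [e2, map_mul, map_inv, e, mul_inv_cancel])
      rw [mul_inv_eq_iff_eq_mul] at this
      rw [this]
      exact mul_mem hb ha
  · left
    have hc2 : 2 ≤ c := by
      by_contra hc2
      apply heq
      have hpos : 0 < Fintype.card {y // InOrb A x y} := Fintype.card_pos_iff.2 ⟨⟨x, inOrb_self A x⟩⟩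
      have hc1 : c = 1 := by
        rcases c with _ | _ | c
        · omega
        · rfl
        · omega
      refine Subgroup.eq_of_le_of_card_ge hR ?_
      rw [h1, hc, hc1, mul_one]
    calc 2 * Nat.card A = 2 * Nat.card R * Nat.card ((sub A x).map (res₂ (InOrb A x))) := by rw [hcard, mul_assoc]
      _ ≤ _ := by
          refine Nat.mul_le_mul_right _ ?_
          rw [hc, mul_comm 2]
          exact Nat.mul_le_mul_left _ hc2

end Abelian

theorem card_le_sB : ∀ (n : ℕ) (α : Type) [Fintype α] [DecidableEq α], Fintype.card α = n →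
    ∀ A : Subgroup (Perm α), (∀ a ∈ A, ∀ b ∈ A, a * b = b * a) → Nat.card A ≤ sB n := by
  classical
  intro n
  induction n using Nat.strong_induction_on with
  | _ n ih =>
    intro α _ _ hn A hA
    rcases Nat.eq_zero_or_pos n with rfl | hpos
    · haveI : IsEmpty α := Fintype.card_eq_zero_iff.1 hn
      rw [show A = ⊥ from Subsingleton.elim _ _, Subgroup.card_bot]
      simp [sB]
    obtain ⟨x⟩ : Nonempty α := Fintype.card_pos_iff.1 (hn ▸ hpos)
    obtain ⟨R, hR, -, hcard⟩ := card_split A x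
    have h1 := card_map₁ x hA
    rw [Nat.card_eq_fintype_card (α := {y // InOrb A x y})] at h1
    have hsum := card_split_point x hA
    have hm : 0 < Fintype.card {y // InOrb A x y} := Fintype.card_pos_iff.2 ⟨⟨x, inOrb_self A x⟩⟩
    have h2 := ih (Fintype.card {y // ¬InOrb A x y}) (by omega) {y // ¬InOrb A x y} rfl _ (comm_map₂ x hA)
    rw [hcard, ← hn, ← hsum]
    exact (Nat.mul_le_mul ((Subgroup.card_le_of_le hR).trans_eq h1) h2).trans (mul_sB_le _ _)

theorem card_le_aB : ∀ (n : ℕ) (α : Type) [Fintype α] [DecidableEq α], Fintype.card α = n →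
    ∀ A : Subgroup (Perm α), (∀ a ∈ A, ∀ b ∈ A, a * b = b * a) → (∀ a ∈ A, Perm.sign a = 1) →
      Nat.card A ≤ aB n := by
  classical
  intro n
  induction n using Nat.strong_induction_on with
  | _ n ih =>
    intro α _ _ hn A hA hev
    rcases Nat.eq_zero_or_pos n with rfl | hpos
    · haveI : IsEmpty α := Fintype.card_eq_zero_iff.1 hn
      rw [show A = ⊥ from Subsingleton.elim _ _, Subgroup.card_bot]
      simp [aB]
    obtain ⟨x⟩ : Nonempty α := Fintype.card_pos_iff.1 (hn ▸ hpos)
    have hsum := card_split_point x hA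
    have hm : 0 < Fintype.card {y // InOrb A x y} := Fintype.card_pos_iff.2 ⟨⟨x, inOrb_self A x⟩⟩
    rcases step_even x hA hev with h | ⟨h, hm2, hev2, -, -⟩
    · have h2 := card_le_sB _ {y // ¬InOrb A x y} rfl _ (comm_map₂ x hA)
      have h3 := h.trans (Nat.mul_le_mul_left _ h2)
      have h4 := mul_sB_le (Fintype.card {y // InOrb A x y}) (Fintype.card {y // ¬InOrb A x y})
      rw [hsum, hn] at h4
      have h5 := sB_le_two_mul_aB n
      omega
    · have h2 := ih (Fintype.card {y // ¬InOrb A x y}) (by omega) {y // ¬InOrb A x y} rfl _ (comm_map₂ x hA) hev2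
      rw [h, ← hn, ← hsum]
      exact (Nat.mul_le_mul_left _ h2).trans (mul_aB_le hm2)

end Cfsg.Agent.MaxAbelPerm
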