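import Cfsg.Agent.MaxAbelPerm.Bound

/-! The largest abelian subgroups of `A_n`: existence and uniqueness up to conjugation. -/

set_option autoImplicit false

namespace Cfsg.Agent.MaxAbelPerm

open Equiv
open scoped Pointwise

/-- Abelian, even and of the largest possible order. -/
def IsMax {α : Type} [Fintype α] [DecidableEq α] (A : Subgroup (Perm α)) : Prop :=
  (∀ a ∈ A, ∀ b ∈ A, a * b = b * a) ∧ (∀ a ∈ A, Perm.sign a = 1) ∧ aB (Fintype.card α) ≤ Nat.card A

section Step

variable {α : Type} [Fintype α] [DecidableEq α] {A : Subgroup (Perm α)} (x : α)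
  [DecidablePred (InOrb A x)]

theorem isMax_step (h : IsMax A) (h3 : 3 ≤ Fintype.card α) (h5 : Fintype.card α ≠ 5) :
    (Fintype.card {y // InOrb A x y} = 3 ∨ Fintype.card {y // InOrb A x y} = 4) ∧
      IsMax ((sub A x).map (res₂ (InOrb A x))) ∧
      ∀ g : Perm α, g ∈ A ↔ ∃ hg : g ∈ Pres (InOrb A x), IsEvenFPF (res₁ (InOrb A x) ⟨g, hg⟩) ∧
        res₂ (InOrb A x) ⟨g, hg⟩ ∈ (sub A x).map (res₂ (InOrb A x)) := by
  obtain ⟨hA, hev, hmax⟩ := h
  have hsum := card_split_point x hA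
  rcases step_even x hA hev with hh | ⟨hc, hm2, hev2, hfpf, hfull⟩
  · exfalso
    have h2 := card_le_sB _ {y // ¬InOrb A x y} rfl _ (comm_map₂ x hA)
    have h3' := hh.trans (Nat.mul_le_mul_left _ h2)
    have h4 := mul_sB_le (Fintype.card {y // InOrb A x y}) (Fintype.card {y // ¬InOrb A x y})
    rw [hsum] at h4
    have h5' := sB_lt_two_mul_aB h3
    omega
  have hm : 0 < Fintype.card {y // InOrb A x y} := Fintype.card_pos_iff.2 ⟨⟨x, inOrb_self A x⟩⟩
  have hle := card_le_aB _ {y // ¬InOrb A x y} rfl _ (comm_map₂ x hA) hev2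
  have hge : aB (Fintype.card {y // InOrb A x y} + Fintype.card {y // ¬InOrb A x y})
      ≤ Fintype.card {y // InOrb A x y} * aB (Fintype.card {y // ¬InOrb A x y}) := by
    rw [hsum]
    exact hmax.trans (hc ▸ Nat.mul_le_mul_left _ hle)
  have h34 := mul_aB_eq hm hm2 (hsum ▸ h3) (hsum ▸ h5) hge
  refine ⟨h34, ⟨comm_map₂ x hA, hev2, ?_⟩, fun g => ⟨fun hg => ?_, ?_⟩⟩
  · have h1 := mul_aB_le (k := Fintype.card {y // ¬InOrb A x y}) hm2
    rw [hsum] at h1
    have h2 := hmax
    rw [hc] at h2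
    exact Nat.le_of_mul_le_mul_left (h1.trans h2) hm
  · exact ⟨le_pres A x hg, hfpf _ ⟨⟨g, le_pres A x hg⟩, hg, rfl⟩, ⟨⟨g, le_pres A x hg⟩, hg, rfl⟩⟩
  · rintro ⟨hg, h₁, h₂⟩
    refine hfull ⟨g, hg⟩ ?_ h₂
    by_contra hn
    have hlt : ((sub A x).map (res₁ (InOrb A x)) : Set (Perm {y // InOrb A x y})).ncard
        < {σ : Perm {y // InOrb A x y} | IsEvenFPF σ}.ncard :=
      Set.ncard_lt_ncard ⟨fun σ hσ => hfpf σ hσ, fun hsub => hn (hsub h₁)⟩
    have e1 : ((sub A x).map (res₁ (InOrb A x)) : Set (Perm {y // InOrb A x y})).ncard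
        = Fintype.card {y // InOrb A x y} := by
      rw [← Nat.card_coe_set_eq, ← Nat.card_eq_fintype_card]; exact card_map₁ x hA
    have e2 : {σ : Perm {y // InOrb A x y} | IsEvenFPF σ}.ncard = Fintype.card {y // InOrb A x y} := by
      rw [← Nat.card_coe_set_eq]; exact card_evenFPF_le h34
    omega

end Step

theorem exists_orbit_four {α : Type} [Fintype α] [DecidableEq α] {A : Subgroup (Perm α)} (h : IsMax A)
    (h3 : 3 ≤ Fintype.card α) (h5 : Fintype.card α ≠ 5) (hm : ¬ 3 ∣ Fintype.card α) :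
    ∃ x : α, ∀ [DecidablePred (InOrb A x)], Fintype.card {y // InOrb A x y} = 4 := by
  classical
  by_contra hh
  apply hm
  rw [← Nat.card_eq_fintype_card, Nat.card_congr (MulAction.selfEquivSigmaOrbits A α), Nat.card_sigma]
  refine Finset.dvd_sum fun o _ => ?_
  have hx : Fintype.card {y // InOrb A o.out y} = 3 := by
    refine (isMax_step o.out h h3 h5).1.resolve_right fun h4 => hh ⟨o.out, ?_⟩
    intro inst
    convert h4
  have e : Nat.card (MulAction.orbit A o.out) = Nat.card {y // InOrb A o.out y} := by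
    refine Nat.card_congr (Equiv.subtypeEquivRight fun y => ?_)
    exact ⟨fun ⟨a, ha⟩ => ⟨a, a.2, ha⟩, fun ⟨a, ha, e⟩ => ⟨⟨a, ha⟩, e⟩⟩
  rw [e, Nat.card_eq_fintype_card, hx]

/-- Glue two equivalences along predicates. -/
def glue {α β : Type*} {p : α → Prop} {q : β → Prop} [DecidablePred p] [DecidablePred q]
    (e₁ : {y // p y} ≃ {y // q y}) (e₂ : {y // ¬p y} ≃ {y // ¬q y}) : α ≃ β :=
  (Equiv.sumCompl p).symm.trans ((Equiv.sumCongr e₁ e₂).trans (Equiv.sumCompl q))

theorem glue_pos {α β : Type*} {p : α → Prop} {q : β → Prop} [DecidablePred p] [DecidablePred q]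
    (e₁ : {y // p y} ≃ {y // q y}) (e₂ : {y // ¬p y} ≃ {y // ¬q y}) (y : α) (hy : p y) :
    glue e₁ e₂ y = (e₁ ⟨y, hy⟩ : β) := by
  simp [glue, Equiv.sumCompl_symm_apply_of_pos hy]

theorem glue_neg {α β : Type*} {p : α → Prop} {q : β → Prop} [DecidablePred p] [DecidablePred q]
    (e₁ : {y // p y} ≃ {y // q y}) (e₂ : {y // ¬p y} ≃ {y // ¬q y}) (y : α) (hy : ¬p y) :
    glue e₁ e₂ y = (e₂ ⟨y, hy⟩ : β) := by
  simp [glue, Equiv.sumCompl_symm_apply_of_neg hy]

/-- Transport of the description of a largest group. -/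
theorem mem_iff_glue {α β : Type} [Fintype α] [DecidableEq α] [Fintype β] [DecidableEq β]
    {A : Subgroup (Perm α)} {B : Subgroup (Perm β)} {p : α → Prop} {q : β → Prop} [DecidablePred p] [DecidablePred q]
    {A₂ : Subgroup (Perm {y // ¬p y})} {B₂ : Subgroup (Perm {y // ¬q y})}
    (hA : ∀ g : Perm α, g ∈ A ↔ ∃ hg : g ∈ Pres p, IsEvenFPF (res₁ p ⟨g, hg⟩) ∧ res₂ p ⟨g, hg⟩ ∈ A₂)
    (hB : ∀ g : Perm β, g ∈ B ↔ ∃ hg : g ∈ Pres q, IsEvenFPF (res₁ q ⟨g, hg⟩) ∧ res₂ q ⟨g, hg⟩ ∈ B₂)
    (e₁ : {y // p y} ≃ {y // q y}) (e₂ : {y // ¬p y} ≃ {y // ¬q y})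
    (h₂ : ∀ σ, σ ∈ A₂ ↔ e₂.permCongr σ ∈ B₂) (g : Perm α) :
    g ∈ A ↔ (glue e₁ e₂).permCongr g ∈ B := by
  have hq : ∀ y, q (glue e₁ e₂ y) ↔ p y := by
    intro y
    by_cases hy : p y
    · simp [glue_pos e₁ e₂ y hy, hy, (e₁ ⟨y, hy⟩).2]
    · simp [glue_neg e₁ e₂ y hy, hy, (e₂ ⟨y, hy⟩).2]
  have hpres : g ∈ Pres p ↔ (glue e₁ e₂).permCongr g ∈ Pres q := by
    constructor
    · intro h y
      obtain ⟨y, rfl⟩ := (glue e₁ e₂).surjective y
      simp [hq, h y]
    · intro h y
      have := h (glue e₁ e₂ y)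
      simpa [hq] using this
  rw [hA, hB]
  constructor
  all_goals
    rintro ⟨hg, h1, h2⟩
  · refine ⟨hpres.1 hg, ?_, ?_⟩
    · convert (isEvenFPF_permCongr e₁ _).2 h1 using 1
      refine Equiv.ext fun z => Subtype.ext ?_
      obtain ⟨⟨y, hy⟩, rfl⟩ := e₁.surjective z
      simp only [res₁_apply, Equiv.permCongr_apply, Equiv.symm_apply_apply]
      rw [← glue_pos e₁ e₂ y hy, Equiv.symm_apply_apply, glue_pos e₁ e₂ _ ((hg y).2 hy)]
      congr 1
    · convert (h₂ _).1 h2 using 1
      refine Equiv.ext fun z => Subtype.ext ?_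
      obtain ⟨⟨y, hy⟩, rfl⟩ := e₂.surjective z
      simp only [res₂_apply, Equiv.permCongr_apply, Equiv.symm_apply_apply]
      rw [← glue_neg e₁ e₂ y hy, Equiv.symm_apply_apply, glue_neg e₁ e₂ _ (fun hh => hy ((hg y).1 hh))]
      congr 1
  · refine ⟨hpres.2 hg, ?_, ?_⟩
    · rw [← isEvenFPF_permCongr e₁]
      convert h1 using 1
      refine Equiv.ext fun z => Subtype.ext ?_
      obtain ⟨⟨y, hy⟩, rfl⟩ := e₁.surjective z
      simp only [res₁_apply, Equiv.permCongr_apply, Equiv.symm_apply_apply]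
      rw [← glue_pos e₁ e₂ y hy, Equiv.symm_apply_apply, glue_pos e₁ e₂ _ (((hpres.2 hg) y).2 hy)]
      congr 1
    · rw [h₂]
      convert h2 using 1
      refine Equiv.ext fun z => Subtype.ext ?_
      obtain ⟨⟨y, hy⟩, rfl⟩ := e₂.surjective z
      simp only [res₂_apply, Equiv.permCongr_apply, Equiv.symm_apply_apply]
      rw [← glue_neg e₁ e₂ y hy, Equiv.symm_apply_apply, glue_neg e₁ e₂ _ (fun hh => hy (((hpres.2 hg) y).1 hh))]
      congr 1

theorem eq_bot_of_card_le_two {α : Type} [Fintype α] [DecidableEq α] (h : Fintype.card α ≤ 2)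
    {A : Subgroup (Perm α)} (hev : ∀ a ∈ A, Perm.sign a = 1) : A = ⊥ := by
  have hc := card_le_aB _ α rfl A
  rw [Subgroup.eq_bot_iff_forall]
  intro a ha
  have hal : Nat.card (alternatingGroup α) = 1 := by
    rcases Nat.lt_or_ge (Fintype.card α) 2 with h1 | h1
    · haveI : Subsingleton α := Fintype.card_le_one_iff_subsingleton.1 (by omega)
      exact Nat.card_of_subsingleton (1 : alternatingGroup α)
    · haveI : Nontrivial α := Fintype.one_lt_card_iff_nontrivial.1 (by omega)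
      rw [nat_card_alternatingGroup, Nat.card_eq_fintype_card, show Fintype.card α = 2 by omega]
      rfl
  exact (Subgroup.eq_bot_iff_forall _).1 (Subgroup.eq_bot_of_card_eq _ hal) a (hev a ha)

/-- Uniqueness, with freedom on the first orbit. -/
theorem exists_equiv : ∀ (n : ℕ), n ≠ 5 → ∀ (α β : Type) [Fintype α] [DecidableEq α] [Fintype β] [DecidableEq β],
    Fintype.card α = n → Fintype.card β = n → ∀ (A : Subgroup (Perm α)) (B : Subgroup (Perm β)),
      IsMax A → IsMax B → ∃ e : α ≃ β, (∀ g, g ∈ A ↔ e.permCongr g ∈ B) ∧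
        (3 ≤ n → ∃ a b : α, a ≠ b ∧ ∀ g, g ∈ A ↔ ((Equiv.swap a b).trans e).permCongr g ∈ B) := by
  classical
  intro n
  induction n using Nat.strong_induction_on with
  | _ n ih =>
    intro hn5 α β _ _ _ _ hα hβ A B hA hB
    by_cases h3 : n ≤ 2
    · refine ⟨Fintype.equivOfCardEq (hα.trans hβ.symm), fun g => ?_, fun h => absurd h (by omega)⟩
      rw [eq_bot_of_card_le_two (hα ▸ h3) hA.2.1, eq_bot_of_card_le_two (hβ ▸ h3) hB.2.1,
        Subgroup.mem_bot, Subgroup.mem_bot]
      rw [← (Equiv.permCongr _).injective.eq_iff (a := g)]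
      constructor <;> intro h <;> rw [h] <;> ext y <;> simp
    have hα3 : 3 ≤ Fintype.card α := by omega
    have hβ3 : 3 ≤ Fintype.card β := by omega
    have hα5 : Fintype.card α ≠ 5 := by omega
    have hβ5 : Fintype.card β ≠ 5 := by omega
    obtain ⟨x, y, hxy, hk⟩ : ∃ x y, Fintype.card {z // InOrb A x z} = Fintype.card {z // InOrb B y z} ∧
        n - Fintype.card {z // InOrb A x z} ≠ 5 := by
      by_cases hd : 3 ∣ n
      · obtain ⟨x⟩ : Nonempty α := Fintype.card_pos_iff.1 (by omega)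
        obtain ⟨y⟩ : Nonempty β := Fintype.card_pos_iff.1 (by omega)
        have key : ∀ {γ : Type} [Fintype γ] [DecidableEq γ] {C : Subgroup (Perm γ)} (z : γ),
            IsMax C → Fintype.card γ = n → Fintype.card {w // InOrb C z w} = 3 := by
          intro γ _ _ C z hC hγ
          obtain ⟨h34, hC2, -⟩ := isMax_step z hC (by omega) (by omega)
          rcases h34 with h4 | h4
          · exact h4
          exfalso
          obtain ⟨j, rfl⟩ := hd
          have hsum := card_split_point z hC.1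
          obtain ⟨hcomm, hev, hmax⟩ := hC
          rcases step_even z hcomm hev with hh | ⟨hc, -, hev2, -, -⟩
          · have h2 := card_le_sB _ {w // ¬InOrb C z w} rfl _ (comm_map₂ z hcomm)
            have h3' := hh.trans (Nat.mul_le_mul_left _ h2)
            have h4' := mul_sB_le (Fintype.card {w // InOrb C z w}) (Fintype.card {w // ¬InOrb C z w})
            rw [hsum] at h4'
            have h5' := sB_lt_two_mul_aB (n := Fintype.card γ) (by omega)
            omega
          · have hle := card_le_aB _ {w // ¬InOrb C z w} rfl _ (comm_map₂ z hcomm) hev2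
            rw [hc, h4] at hmax
            have := hmax.trans (Nat.mul_le_mul_left _ hle)
            rw [← hsum, h4] at this
            obtain ⟨i, hi⟩ : ∃ i, Fintype.card {w // ¬InOrb C z w} = 3 * i + 2 := ⟨(Fintype.card {w // ¬InOrb C z w} - 2) / 3, by omega⟩
            rw [hi] at this
            rcases i with _ | _ | i
            · simp [aB] at this
            · simp [aB] at this
            · rw [aB_three_two, show 4 + (3 * (i + 1 + 1) + 2) = 3 * (i + 2 + 2) by ring, aB_three,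
                pow_add] at this
              have hp : 0 < 3 ^ i := Nat.pow_pos (by norm_num)
              rw [show i + 2 = i + 2 from rfl, pow_add] at this
              norm_num at this
              omega
        refine ⟨x, y, (key x hA hα).trans (key y hB hβ).symm, ?_⟩
        rw [key x hA hα]
        omega
      · obtain ⟨x, hx⟩ := exists_orbit_four hA hα3 hα5 (hα.symm ▸ hd)
        obtain ⟨y, hy⟩ := exists_orbit_four hB hβ3 hβ5 (hβ.symm ▸ hd)
        refine ⟨x, y, hx.trans hy.symm, ?_⟩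
        rw [hx]
        omega
    obtain ⟨hm, hA2, hAiff⟩ := isMax_step x hA hα3 hα5
    obtain ⟨-, hB2, hBiff⟩ := isMax_step y hB hβ3 hβ5
    have hsA := card_split_point x hA.1
    have hsB := card_split_point y hB.1
    obtain ⟨e₂, he₂, -⟩ := ih _ (by omega) (by omega) {z // ¬InOrb A x z} {z // ¬InOrb B y z} rfl (by omega) _ _ hA2 hB2
    obtain ⟨e₁⟩ : Nonempty ({z // InOrb A x z} ≃ {z // InOrb B y z}) := ⟨Fintype.equivOfCardEq hxy⟩
    refine ⟨glue e₁ e₂, mem_iff_glue hAiff hBiff e₁ e₂ he₂, fun _ => ?_⟩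
    obtain ⟨a, b, hab⟩ := Fintype.exists_pair_of_one_lt_card (α := {z // InOrb A x z}) (by omega)
    refine ⟨a, b, fun h => hab (Subtype.ext h), fun g => ?_⟩
    have hglue : (Equiv.swap (a : α) b).trans (glue e₁ e₂) = glue ((Equiv.swap a b).trans e₁) e₂ := by
      refine Equiv.ext fun z => ?_
      by_cases hz : InOrb A x z
      · have hz' : InOrb A x (Equiv.swap (a : α) b z) := by
          rw [Equiv.swap_apply_def]; split_ifs <;> first | exact a.2 | exact b.2 | exact hz
        rw [Equiv.trans_apply, glue_pos _ _ _ hz', glue_pos _ _ _ hz, Equiv.trans_apply]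
        congr 2
        exact Subtype.ext (Subtype.val_injective.swap_apply a b ⟨z, hz⟩)
      · have hza : z ≠ a := fun h => hz (h ▸ a.2)
        have hzb : z ≠ b := fun h => hz (h ▸ b.2)
        rw [Equiv.trans_apply, Equiv.swap_apply_of_ne_of_ne hza hzb, glue_neg _ _ _ hz, glue_neg _ _ _ hz]
    rw [hglue]
    exact mem_iff_glue hAiff hBiff _ e₂ he₂ g

/-- Abelian (and possibly even) subgroup of a given order. -/
def Has (ev : Prop) (n c : ℕ) : Prop :=
  ∃ A : Subgroup (Perm (Fin n)), (∀ a ∈ A, ∀ b ∈ A, a * b = b * a) ∧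
    (ev → ∀ a ∈ A, Perm.sign a = 1) ∧ Nat.card A = c

theorem has_add {ev : Prop} {m n c d : ℕ} (h₁ : Has ev m c) (h₂ : Has ev n d) : Has ev (m + n) (c * d) := by
  obtain ⟨A, hA, hA', rfl⟩ := h₁
  obtain ⟨B, hB, hB', rfl⟩ := h₂
  let f : Perm (Fin m) × Perm (Fin n) →* Perm (Fin (m + n)) :=
    (finSumFinEquiv.permCongrHom.toMonoidHom).comp (Perm.sumCongrHom (Fin m) (Fin n))
  have hf : Function.Injective f :=
    (finSumFinEquiv.permCongrHom.injective).comp Perm.sumCongrHom_injective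
  refine ⟨(A.prod B).map f, ?_, ?_, ?_⟩
  · rintro _ ⟨a, ha, rfl⟩ _ ⟨b, hb, rfl⟩
    rw [← map_mul, ← map_mul]
    exact congrArg f (Prod.ext (hA _ ha.1 _ hb.1) (hB _ ha.2 _ hb.2))
  · rintro hev _ ⟨a, ha, rfl⟩
    show Perm.sign (finSumFinEquiv.permCongr (Equiv.sumCongr a.1 a.2)) = 1
    rw [Perm.sign_permCongr, Perm.sign_sumCongr, hA' hev _ ha.1, hB' hev _ ha.2, one_mul]
  · rw [Subgroup.card_map_of_injective hf, Nat.card_congr (Subgroup.prodEquiv A B).toEquiv, Nat.card_prod]

theorem has_one (ev : Prop) (n : ℕ) : Has ev n 1 :=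
  ⟨⊥, by simp, by simp, Subgroup.card_bot⟩

theorem has_rotate {ev : Prop} (m : ℕ) (h : ev → Even m) : Has ev (m + 1) (m + 1) := by
  refine ⟨Subgroup.zpowers (finRotate (m + 1)), ?_, ?_, ?_⟩
  · rintro a ⟨i, rfl⟩ b ⟨j, rfl⟩
    exact zpow_mul_comm _ i j
  · rintro hev _ ⟨i, rfl⟩
    show Perm.sign ((finRotate (m + 1)) ^ i) = 1
    rw [map_zpow, sign_finRotate, Nat.add_sub_cancel, (h hev).neg_one_pow, one_zpow]
  · rw [Nat.card_zpowers]
    rcases m with _ | k
    · rw [show finRotate (0 + 1) = 1 by decide, orderOf_one]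
    · rw [(isCycle_finRotate (n := k)).orderOf, support_finRotate]
      simp

theorem evenFPF_four_closed : ∀ a b : Perm (Fin 4), IsEvenFPF a → IsEvenFPF b →
    IsEvenFPF (a * b) ∧ IsEvenFPF a⁻¹ ∧ a * b = b * a := by
  unfold IsEvenFPF
  decide +kernel

theorem has_four (ev : Prop) : Has ev 4 4 := by
  let V : Subgroup (Perm (Fin 4)) :=
    { carrier := {σ | IsEvenFPF σ}
      mul_mem' := fun ha hb => (evenFPF_four_closed _ _ ha hb).1
      one_mem' := ⟨map_one _, Or.inl rfl⟩
      inv_mem' := fun {a} ha => (evenFPF_four_closed a a ha ha).2.1 }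
  exact ⟨V, fun a ha b hb => (evenFPF_four_closed a b ha hb).2.2, fun _ a ha => ha.1, card_evenFPF_four⟩

theorem exists_max_sym : ∀ n, Has False n (sB n)
  | 0 => has_one _ 0
  | 1 => has_one _ 1
  | 2 => has_rotate 1 False.elim
  | 3 => has_rotate 2 False.elim
  | 4 => has_rotate 3 False.elim
  | n + 5 => by
    have := has_add (has_rotate (ev := False) 2 False.elim) (exists_max_sym (n + 2))
    rwa [show 2 + 1 + (n + 2) = n + 5 by ring] at this

theorem exists_max_alt : ∀ n, Has True n (aB n)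
  | 0 => has_one _ 0
  | 1 => has_one _ 1
  | 2 => has_one _ 2
  | 3 => has_rotate 2 fun _ => even_two
  | 4 => has_four _
  | 5 => has_rotate 4 fun _ => by decide
  | 6 => has_add (has_rotate 2 fun _ => even_two) (has_rotate 2 fun _ => even_two)
  | 7 => has_add (has_four _) (has_rotate 2 fun _ => even_two)
  | 8 => has_add (has_four _) (has_four _)
  | n + 9 => by
    have := has_add (has_rotate (ev := True) 2 fun _ => even_two) (exists_max_alt (n + 6))
    rwa [show 2 + 1 + (n + 6) = n + 9 by ring] at this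

theorem isGreatest_sym (n : ℕ) :
    IsGreatest {c : ℕ | ∃ A : Subgroup (Perm (Fin n)), IsMulCommutative A ∧ Nat.card A = c} (sB n) := by
  constructor
  · obtain ⟨A, hA, -, hc⟩ := exists_max_sym n
    exact ⟨A, IsMulCommutative.of_setLike_mul_comm hA, hc⟩
  · rintro c ⟨A, hA, rfl⟩
    refine card_le_sB n (Fin n) (Fintype.card_fin n) A fun a ha b hb => ?_
    exact congrArg Subtype.val (mul_comm' (⟨a, ha⟩ : A) ⟨b, hb⟩)

theorem comm_map_subtype {n : ℕ} {A : Subgroup (alternatingGroup (Fin n))} (hA : IsMulCommutative A) :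
    ∀ a ∈ A.map (alternatingGroup (Fin n)).subtype, ∀ b ∈ A.map (alternatingGroup (Fin n)).subtype,
      a * b = b * a := by
  rintro _ ⟨a, ha, rfl⟩ _ ⟨b, hb, rfl⟩
  exact congrArg (Subtype.val ∘ Subtype.val) (mul_comm' (⟨a, ha⟩ : A) ⟨b, hb⟩)

theorem isGreatest_alt (n : ℕ) :
    IsGreatest {c : ℕ | ∃ A : Subgroup (alternatingGroup (Fin n)), IsMulCommutative A ∧ Nat.card A = c} (aB n) := by
  constructor
  · obtain ⟨A, hA, hev, hc⟩ := exists_max_alt n
    refine ⟨A.subgroupOf _, IsMulCommutative.of_setLike_mul_comm fun a ha b hb =>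
      Subtype.ext (hA _ ha _ hb), ?_⟩
    rw [Nat.card_congr (Subgroup.subgroupOfEquivOfLe (K := alternatingGroup (Fin n)) (hev trivial)).toEquiv, hc]
  · rintro c ⟨A, hA, rfl⟩
    rw [← Subgroup.card_map_of_injective (K := A) (f := (alternatingGroup (Fin n)).subtype) (alternatingGroup (Fin n)).subtype_injective]
    refine card_le_aB n (Fin n) (Fintype.card_fin n) _ (comm_map_subtype hA) ?_
    rintro _ ⟨a, -, rfl⟩
    exact a.2

theorem conj_of_max (n : ℕ) (A B : Subgroup (alternatingGroup (Fin n)))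
    (hA : IsMulCommutative A) (hB : IsMulCommutative B)
    (hAc : Nat.card A = aB n) (hBc : Nat.card B = aB n) :
    ∃ g : alternatingGroup (Fin n), B = MulAut.conj g • A := by
  rcases eq_or_ne n 5 with rfl | hn5
  · haveI : Fact (Nat.Prime 5) := ⟨Nat.prime_five⟩
    have h5 : ∀ C : Subgroup (alternatingGroup (Fin 5)), Nat.card C = aB 5 →
        ∃ P : Sylow 5 (alternatingGroup (Fin 5)), (P : Subgroup _) = C := by
      intro C hC
      refine ⟨Sylow.ofCard C ?_, rfl⟩
      rw [hC, nat_card_alternatingGroup, Nat.card_fin]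
      rw [show Nat.factorial 5 / 2 = 5 * 12 by rfl, Nat.factorization_mul (by norm_num) (by norm_num)]
      simp [aB, Nat.Prime.factorization_self Nat.prime_five, Nat.factorization_eq_zero_of_not_dvd]
    obtain ⟨P, rfl⟩ := h5 A hAc
    obtain ⟨Q, rfl⟩ := h5 B hBc
    obtain ⟨g, rfl⟩ := MulAction.exists_smul_eq (alternatingGroup (Fin 5)) P Q
    exact ⟨g, rfl⟩
  have hev : ∀ C : Subgroup (alternatingGroup (Fin n)), ∀ a ∈ C.map (alternatingGroup (Fin n)).subtype,
      Perm.sign a = 1 := by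
    rintro C _ ⟨a, -, rfl⟩
    exact a.2
  have hm : ∀ C : Subgroup (alternatingGroup (Fin n)), IsMulCommutative C → Nat.card C = aB n →
      IsMax (C.map (alternatingGroup (Fin n)).subtype) := by
    intro C hC hc
    refine ⟨comm_map_subtype hC, hev C, ?_⟩
    rw [Fintype.card_fin, Subgroup.card_map_of_injective (alternatingGroup (Fin n)).subtype_injective, hc]
  rcases Nat.lt_or_ge n 3 with h3 | h3
  · have hA0 := eq_bot_of_card_le_two (by simp; omega) (hev A)
    have hB0 := eq_bot_of_card_le_two (by simp; omega) (hev B)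
    rw [Subgroup.map_eq_bot_iff_of_injective _ (alternatingGroup (Fin n)).subtype_injective] at hA0 hB0
    exact ⟨1, by rw [hA0, hB0, map_one, one_smul]⟩
  obtain ⟨e, he, hflip⟩ := exists_equiv n hn5 (Fin n) (Fin n) (Fintype.card_fin n) (Fintype.card_fin n) _ _
    (hm A hA hAc) (hm B hB hBc)
  obtain ⟨e', he', hsign⟩ : ∃ e' : Perm (Fin n),
      (∀ g, g ∈ A.map (alternatingGroup (Fin n)).subtype ↔ e'.permCongr g ∈ B.map (alternatingGroup (Fin n)).subtype) ∧
      Perm.sign e' = 1 := by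
    rcases Int.units_eq_one_or (Perm.sign e) with h | h
    · exact ⟨e, he, h⟩
    · obtain ⟨a, b, hab, hswap⟩ := hflip h3
      refine ⟨(Equiv.swap a b).trans e, hswap, ?_⟩
      rw [Perm.sign_trans, h, Perm.sign_swap hab]
      rfl
  refine ⟨⟨e', hsign⟩, ?_⟩
  apply Subgroup.map_injective (alternatingGroup (Fin n)).subtype_injective
  ext g
  constructor
  · intro hg
    obtain ⟨g, rfl⟩ : ∃ g', g = e'.permCongr g' := ⟨e'.permCongr.symm g, (Equiv.apply_symm_apply _ _).symm⟩
    obtain ⟨a, ha, ea⟩ := (he' g).2 hg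
    refine ⟨MulAut.conj ⟨e', hsign⟩ a, Subgroup.smul_mem_pointwise_smul _ _ _ ha, ?_⟩
    rw [← ea]
    ext y
    simp [Equiv.permCongr_apply]
  · rintro ⟨c, hc, rfl⟩
    obtain ⟨a, ha, rfl⟩ := hc
    have := (he' a).1 ⟨a, ha, rfl⟩
    convert this using 1
    ext y
    simp [Equiv.permCongr_apply]

end Cfsg.Agent.MaxAbelPerm
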